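/-
Small facts for the automorphisms centralising a Sylow 2-subgroup: central 2-subgroups of odd index
and involutory automorphisms of groups of even order.
-/
import Mathlib

set_option autoImplicit false
set_option linter.style.haveILetI false

namespace CfsgLib.OutSolvable

variable {C : Type*} [Group C] [Finite C]

theorem exists_fixed_involution (hC : Even (Nat.card C)) (τ : MulAut C) (hτ : τ * τ = 1) :
    ∃ x : C, x ≠ 1 ∧ x * x = 1 ∧ τ x = x := by
  classical
  haveI := Fintype.ofFinite C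
  haveI : Fact (Nat.Prime 2) := ⟨Nat.prime_two⟩
  set σ : Equiv.Perm C := Equiv.inv C with hσ
  have hσ2 : σ ^ 2 ^ 1 = 1 := by
    ext x
    simp [hσ, pow_two]
  have hfix := Equiv.Perm.card_compl_support_modEq (p := 2) hσ2
  rw [← Nat.card_eq_fintype_card] at hfix
  set X := {x : C // x ≠ 1 ∧ x * x = 1}
  have hset : (σ.supportᶜ).erase 1 = Finset.univ.filter (fun x : C => x ≠ 1 ∧ x * x = 1) := by
    ext x
    simp [hσ, inv_eq_iff_mul_eq_one]
  have h1 : (1 : C) ∈ σ.supportᶜ := by simp [hσ]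
  have hX : Fintype.card X + 1 = (σ.supportᶜ).card := by
    rw [Fintype.card_subtype, ← hset, Finset.card_erase_of_mem h1]
    have := Finset.card_pos.2 ⟨1, h1⟩
    omega
  let f : Equiv.Perm X :=
    { toFun := fun x => ⟨τ x.1, (EmbeddingLike.map_ne_one_iff (f := τ)).2 x.2.1, by
        rw [← map_mul, x.2.2, map_one]⟩
      invFun := fun x => ⟨τ x.1, (EmbeddingLike.map_ne_one_iff (f := τ)).2 x.2.1, by
        rw [← map_mul, x.2.2, map_one]⟩
      left_inv := fun x => Subtype.ext (by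
        show τ (τ x.1) = x.1
        rw [← MulAut.mul_apply, hτ, MulAut.one_apply])
      right_inv := fun x => Subtype.ext (by
        show τ (τ x.1) = x.1
        rw [← MulAut.mul_apply, hτ, MulAut.one_apply]) }
  have hf : f ^ 2 ^ 1 = 1 := by
    refine Equiv.ext fun x => Subtype.ext ?_
    show τ (τ x.1) = x.1
    rw [← MulAut.mul_apply, hτ, MulAut.one_apply]
  have hodd : ¬ 2 ∣ Fintype.card X := by
    intro hd
    rw [← hX] at hfix
    have h2 : (Nat.card C) % 2 = 0 := Nat.even_iff.1 hC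
    have h3 : (Fintype.card X + 1) % 2 = Nat.card C % 2 := hfix
    omega
  obtain ⟨x, hx⟩ := Equiv.Perm.exists_fixed_point_of_prime hodd hf
  exact ⟨x.1, x.2.1, x.2.2, congrArg Subtype.val hx⟩

variable {Z : Subgroup C}

/-- An involutory automorphism fixing a central 2-subgroup of even index moves some further
2-element only within its coset. -/
theorem exists_coset_fixed (hZ : Z ≤ Subgroup.center C) (hZ2 : IsPGroup 2 Z)
    (hidx : Even Z.index) (τ : MulAut C) (hτ : τ * τ = 1) (hτZ : ∀ z ∈ Z, τ z = z) :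
    ∃ e : C, e ∉ Z ∧ (∃ k : ℕ, e ^ 2 ^ k = 1) ∧ e⁻¹ * τ e ∈ Z := by
  haveI hn : Z.Normal := ⟨fun n hn g => by rw [Subgroup.mem_center_iff.1 (hZ hn) g, mul_inv_cancel_right]; exact hn⟩
  have hmap : Z.map (τ : C →* C) = Z := by
    ext x
    constructor
    · rintro ⟨y, hy, rfl⟩
      show τ y ∈ Z
      rwa [hτZ y hy]
    · exact fun hx => ⟨x, hx, hτZ x hx⟩
  set τ' : MulAut (C ⧸ Z) := QuotientGroup.congr Z Z τ hmap with hτ'
  have hτ'' : τ' * τ' = 1 := by
    ext p
    induction p using QuotientGroup.induction_on with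
    | _ g =>
    show ((τ (τ g) : C) : C ⧸ Z) = (g : C ⧸ Z)
    rw [← MulAut.mul_apply, hτ, MulAut.one_apply]
  obtain ⟨p, hp1, hpp, hpt⟩ := exists_fixed_involution (C := C ⧸ Z) (by rwa [← Subgroup.index]) τ' hτ''
  induction p using QuotientGroup.induction_on with
  | _ e =>
  refine ⟨e, fun he => hp1 ((QuotientGroup.eq_one_iff e).2 he), ?_, ?_⟩
  · rw [← QuotientGroup.mk_mul, QuotientGroup.eq_one_iff] at hpp
    obtain ⟨k, hk⟩ := hZ2 ⟨e * e, hpp⟩
    have hk : (e * e) ^ 2 ^ k = 1 := congrArg Subtype.val hk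
    exact ⟨k + 1, by rw [pow_succ', pow_mul, pow_two]; exact hk⟩
  · rw [← QuotientGroup.eq]
    have hpt : ((τ e : C) : C ⧸ Z) = (e : C ⧸ Z) := hpt
    exact hpt.symm

/-- A central 2-subgroup of odd index has a complement consisting of the elements of odd order. -/
theorem exists_odd_complement (hZ : Z ≤ Subgroup.center C) (hZ2 : IsPGroup 2 Z)
    (hidx : Odd Z.index) :
    ∃ O : Subgroup C, O.Normal ∧ (∀ x ∈ O, Odd (orderOf x)) ∧ (∀ x, ∃ z ∈ Z, ∃ o ∈ O, x = z * o) ∧
      ∀ x, Odd (orderOf x) → x ∈ O := by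
  haveI : Fact (Nat.Prime 2) := ⟨Nat.prime_two⟩
  haveI hn : Z.Normal := ⟨fun n hn g => by rw [Subgroup.mem_center_iff.1 (hZ hn) g, mul_inv_cancel_right]; exact hn⟩
  obtain ⟨k, hk⟩ := IsPGroup.iff_card.1 hZ2
  have hcop : (Nat.card Z).Coprime Z.index := by
    rw [hk]; exact (Nat.coprime_two_left.2 hidx).pow_left k
  obtain ⟨O, hO⟩ := Subgroup.exists_right_complement'_of_coprime hcop
  have hdec : ∀ x, ∃ z ∈ Z, ∃ o ∈ O, x = z * o := fun x => by
    obtain ⟨⟨⟨z, hz⟩, ⟨o, ho⟩⟩, e⟩ := hO.2 x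
    exact ⟨z, hz, o, ho, e.symm⟩
  have hOc : Nat.card O = Z.index := by
    apply Nat.eq_of_mul_eq_mul_left (Nat.card_pos : 0 < Nat.card Z)
    rw [hO.card_mul, Z.card_mul_index]
  have hOodd : ∀ x ∈ O, Odd (orderOf x) := fun x hx =>
    (hOc ▸ hidx : Odd (Nat.card O)).of_dvd_nat (Subgroup.orderOf_dvd_natCard _ hx)
  refine ⟨O, ⟨fun o ho g => ?_⟩, hOodd, hdec, fun x hx => ?_⟩
  · obtain ⟨z, hz, o', ho', rfl⟩ := hdec g
    have e : z * o' * o * (z * o')⁻¹ = o' * o * o'⁻¹ := by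
      calc z * o' * o * (z * o')⁻¹ = z * (o' * o * o'⁻¹) * z⁻¹ := by group
        _ = _ := by rw [← Subgroup.mem_center_iff.1 (hZ hz) (o' * o * o'⁻¹), mul_inv_cancel_right]
    rw [e]
    exact O.mul_mem (O.mul_mem ho' ho) (O.inv_mem ho')
  · obtain ⟨z, hz, o, ho, rfl⟩ := hdec x
    have hcomm : Commute z o := (Subgroup.mem_center_iff.1 (hZ hz) o).symm
    obtain ⟨i, hi⟩ := hZ2 ⟨z, hz⟩
    have hi : z ^ 2 ^ i = 1 := congrArg Subtype.val hi
    have h1 : orderOf z ∣ orderOf (z * o) * orderOf o := by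
      have hzo : Commute (z * o) o⁻¹ := (hcomm.mul_left (Commute.refl o)).inv_right
      have := hzo.orderOf_mul_dvd_mul_orderOf
      rwa [mul_inv_cancel_right, orderOf_inv] at this
    have h2 : Odd (orderOf z) := (hx.mul (hOodd o ho)).of_dvd_nat h1
    obtain ⟨j, -, hj⟩ := (Nat.dvd_prime_pow Nat.prime_two).1 (orderOf_dvd_of_pow_eq_one hi)
    rcases j with _ | j
    · rw [orderOf_eq_one_iff.1 hj, one_mul]; exact ho
    · exfalso
      rw [hj] at h2
      exact Nat.not_even_iff_odd.2 h2 (even_iff_two_dvd.2 (dvd_pow_self 2 (Nat.succ_ne_zero _)))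

end CfsgLib.OutSolvable
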