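/-
An involution in the derived group of the centraliser of a Sylow 2-subgroup in the automorphism group
of a finite non-abelian simple group is trivial (Glauberman's theorem on the fusion of such
automorphisms, via the Alperin-Goldschmidt conjugation theorem and the Z*-theorem).
-/
import Cfsg.Agent.Lib.OutSolvable.Basic
import Cfsg.Agent.Lib.Goldschmidt.Conjugation
import Cfsg.Agent.Lib.Involutions.BrauerSuzuki

set_option autoImplicit false
set_option linter.style.haveILetI false

open scoped commutatorElement Pointwise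

namespace CfsgLib.OutSolvable

universe u

variable {G : Type u} [Group G]

/-- The automorphisms fixing every element of `S`. -/
def fixAut (S : Subgroup G) : Subgroup (MulAut G) where
  carrier := {α | ∀ s ∈ S, α s = s}
  one_mem' := fun _ _ => rfl
  mul_mem' := fun {α β} ha hb s hs => by rw [MulAut.mul_apply, hb s hs, ha s hs]
  inv_mem' := fun {α} ha s hs => by
    conv_lhs => rw [← ha s hs]
    rw [MulAut.inv_apply_self]

theorem conj_conj (t : MulAut G) (g : G) : t * MulAut.conj g * t⁻¹ = MulAut.conj (t g) := by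
  ext y
  simp [MulAut.conj_apply, map_mul, map_inv]

variable [Finite G]

theorem mem_sylow_of_centralizer (S : Sylow 2 G) {g : G} (hc : ∀ s ∈ S, Commute g s)
    {k : ℕ} (hg : g ^ 2 ^ k = 1) : g ∈ (S : Subgroup G) := by
  haveI : Fact (Nat.Prime 2) := ⟨Nat.prime_two⟩
  have h2 : IsPGroup 2 (Subgroup.zpowers g) := by
    obtain ⟨j, -, hj⟩ := (Nat.dvd_prime_pow Nat.prime_two).1 (orderOf_dvd_of_pow_eq_one hg)
    exact IsPGroup.of_card (n := j) (by rw [Nat.card_zpowers, hj])
  have hN : Subgroup.zpowers g ≤ Subgroup.normalizer ((S : Subgroup G) : Set G) :=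
    Subgroup.zpowers_le.2 (Subgroup.centralizer_le_normalizer _
      (Subgroup.mem_centralizer_iff.2 fun s hs => (hc s hs).eq.symm))
  have h := S.is_maximal' (IsPGroup.to_sup_of_normal_right' h2 S.2 hN) le_sup_right
  rw [← h]
  exact Subgroup.mem_sup_left (Subgroup.mem_zpowers g)

variable [IsSimpleGroup G]

theorem conj_injective' (hG : ¬ IsMulCommutative G) :
    Function.Injective (MulAut.conj : G →* MulAut G) := by
  rw [← MonoidHom.ker_eq_bot_iff]
  refine (Subgroup.Normal.eq_bot_or_eq_top (inferInstance : (MulAut.conj : G →* MulAut G).ker.Normal)).resolve_right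
    fun h => hG ⟨⟨fun a b => ?_⟩⟩
  have ha : a ∈ (MulAut.conj : G →* MulAut G).ker := h ▸ Subgroup.mem_top a
  have := MulEquiv.congr_fun (MonoidHom.mem_ker.1 ha) b
  simp only [MulAut.conj_apply, MulAut.one_apply] at this
  exact mul_inv_eq_iff_eq_mul.1 this

/-- An involution of `⁅K, K⁆`, where `K` fixes a Sylow 2-subgroup pointwise, is trivial. -/
theorem involution_eq_one (hG : ¬ IsMulCommutative G) (S : Sylow 2 G) (hS1 : (S : Subgroup G) ≠ ⊥)
    {t : MulAut G} (ht : t * t = 1)
    (htK : t ∈ ⁅fixAut (S : Subgroup G), fixAut (S : Subgroup G)⁆) : t = 1 := by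
  classical
  haveI : Fact (Nat.Prime 2) := ⟨Nat.prime_two⟩
  by_contra ht1
  set K := fixAut (S : Subgroup G) with hK
  have htfix : ∀ s ∈ (S : Subgroup G), t s = s := fun s hs =>
    (Subgroup.commutator_le_self K : ⁅K, K⁆ ≤ K) htK s hs
  have hti : t⁻¹ = t := inv_eq_of_mul_eq_one_right ht
  have hinj := conj_injective' hG
  set X : Subgroup (MulAut G) := (MulAut.conj : G →* MulAut G).range ⊔ Subgroup.zpowers t with hX
  let ι : G →* X := (MulAut.conj : G →* MulAut G).codRestrict X
    fun g => Subgroup.mem_sup_left ⟨g, rfl⟩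
  set tX : X := ⟨t, Subgroup.mem_sup_right (Subgroup.mem_zpowers t)⟩ with htX
  have hιinj : Function.Injective ι := fun a b e => hinj (congrArg Subtype.val e)
  have htXtX : tX * tX = 1 := Subtype.ext ht
  have htXi : tX⁻¹ = tX := inv_eq_of_mul_eq_one_right htXtX
  have hιconj : ∀ g, tX * ι g * tX⁻¹ = ι (t g) := fun g => Subtype.ext (conj_conj t g)
  have hdec : ∀ x : X, ∃ g, x = ι g ∨ x = ι g * tX := by
    rintro ⟨x, hx⟩
    haveI : (MulAut.conj : G →* MulAut G).range.Normal := ⟨by
      rintro _ ⟨g, rfl⟩ α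
      exact ⟨α g, (conj_conj α g).symm⟩⟩
    obtain ⟨_, ⟨g, rfl⟩, w, hw, rfl⟩ := Subgroup.mem_sup_of_normal_left.1 hx
    obtain ⟨i, rfl⟩ := Subgroup.mem_zpowers_iff.1 hw
    rcases Int.even_or_odd i with ⟨j, rfl⟩ | ⟨j, rfl⟩
    · refine ⟨g, Or.inl (Subtype.ext ?_)⟩
      show MulAut.conj g * t ^ (j + j) = MulAut.conj g
      rw [zpow_add, ← (Commute.refl t).mul_zpow, ht, one_zpow, mul_one]
    · refine ⟨g, Or.inr (Subtype.ext ?_)⟩
      show MulAut.conj g * t ^ (2 * j + 1) = MulAut.conj g * t
      rw [zpow_add, zpow_mul, zpow_two, ht, one_zpow, one_mul, zpow_one]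
  -- a Sylow subgroup containing the image of `S` and `t`
  have hSmap : ∀ s ∈ (S : Subgroup G), Commute tX (ι s) := fun s hs => by
    have := hιconj s
    rw [htfix s hs] at this
    exact mul_inv_eq_iff_eq_mul.1 this
  have hT : IsPGroup 2 ↥((S : Subgroup G).map ι ⊔ Subgroup.zpowers tX) := by
    refine IsPGroup.to_sup_of_normal_left' (S.2.map ι)
      (IsPGroup.of_card (n := 1) ?_) (Subgroup.zpowers_le.2 ?_)
    · rw [Nat.card_zpowers, orderOf_eq_prime (by rw [pow_two]; exact htXtX)
        (fun e => ht1 (congrArg Subtype.val e)), pow_one]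
    · refine Subgroup.centralizer_le_normalizer _ (Subgroup.mem_centralizer_iff.2 ?_)
      rintro _ ⟨s, hs, rfl⟩
      exact (hSmap s hs).eq.symm
  obtain ⟨P, hP⟩ := hT.exists_le_sylow
  have hPG : ∀ g, ι g ∈ (P : Subgroup X) → g ∈ (S : Subgroup G) := by
    intro g hg
    have h := S.is_maximal' (P.2.comap_of_injective ι hιinj)
      (fun s hs => hP (Subgroup.mem_sup_left ⟨s, hs, rfl⟩))
    exact h ▸ hg
  have htP : tX ∈ (P : Subgroup X) := hP (Subgroup.mem_sup_right (Subgroup.mem_zpowers _))
  -- the key step: good subgroups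
  have key : ∀ D : Subgroup X, CfsgLib.Goldschmidt.IsGood P D → tX ∈ D →
      ∀ x ∈ Subgroup.normalizer (D : Set X), x⁻¹ * tX * x = tX := by
    intro D hD htD x hx
    obtain ⟨hDP, hDcent, ⟨-, -, hDcomm, hDdisj, hDsup⟩, -⟩ := hD
    set R := D.comap ι with hR
    have hRS : ∀ r ∈ R, r ∈ (S : Subgroup G) := fun r hr => hPG r (hDP hr)
    have htR : ∀ r ∈ R, t r = r := fun r hr => htfix r (hRS r hr)
    have hDelt : ∀ d ∈ D, ∃ r ∈ R, d = ι r ∨ d = ι r * tX := by
      intro d hd
      obtain ⟨g, rfl | rfl⟩ := hdec d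
      · exact ⟨g, hd, Or.inl rfl⟩
      · refine ⟨g, ?_, Or.inr rfl⟩
        have := D.mul_mem hd (D.inv_mem htD)
        rwa [mul_inv_cancel_right] at this
    set Cg := Subgroup.centralizer (R : Set G) with hCg
    have hCgK : ∀ k ∈ K, ∀ y ∈ Cg, k y ∈ Cg := by
      intro k hk y hy
      rw [hCg, Subgroup.mem_centralizer_iff] at hy ⊢
      intro r hr
      rw [← hk r (hRS r hr), ← map_mul, ← map_mul, hy r hr]
    set Z := R.subgroupOf Cg with hZdef
    have hZc : Z ≤ Subgroup.center Cg := fun z hz => Subgroup.mem_center_iff.2 fun w =>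
      Subtype.ext ((Subgroup.mem_centralizer_iff.1 w.2 _ hz).symm)
    have hR2 : IsPGroup 2 R := S.2.to_le fun r hr => hRS r hr
    have hZ2 : IsPGroup 2 Z := hR2.comap_subtype
    set N := Subgroup.normalizer (D : Set X) with hN
    have hRnorm : ∀ y ∈ N, ∀ r ∈ R, ∃ r' ∈ R, y * ι r * y⁻¹ = ι r' := by
      intro y hy r hr
      obtain ⟨g, rfl | rfl⟩ := hdec y
      · refine ⟨g * r * g⁻¹, ?_, by simp⟩
        show ι (g * r * g⁻¹) ∈ D
        rw [map_mul, map_mul, map_inv]
        exact (Subgroup.mem_normalizer_iff.1 hy _).1 hr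
      · refine ⟨g * r * g⁻¹, ?_, ?_⟩
        · show ι (g * r * g⁻¹) ∈ D
          have h1 := (Subgroup.mem_normalizer_iff.1 hy _).1 hr
          have e : ι g * tX * ι r * (ι g * tX)⁻¹ = ι (g * r * g⁻¹) := by
            rw [mul_assoc (ι g), (hSmap r (hRS r hr)).eq, map_mul, map_mul, map_inv]
            group
          rwa [e] at h1
        · rw [mul_assoc (ι g), (hSmap r (hRS r hr)).eq, map_mul, map_mul, map_inv]
          group
    -- the Sylow 2-subgroup of `Cg` is `Z`
    have hodd : Odd Z.index := by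
      by_contra hne
      rw [Nat.not_odd_iff_even] at hne
      let τ : MulAut Cg :=
        { toFun := fun y => ⟨t y, hCgK t ((Subgroup.commutator_le_self K : ⁅K, K⁆ ≤ K) htK) y y.2⟩
          invFun := fun y => ⟨t y, hCgK t ((Subgroup.commutator_le_self K : ⁅K, K⁆ ≤ K) htK) y y.2⟩
          left_inv := fun y => Subtype.ext (by show t (t y) = y; rw [← MulAut.mul_apply, ht]; rfl)
          right_inv := fun y => Subtype.ext (by show t (t y) = y; rw [← MulAut.mul_apply, ht]; rfl)
          map_mul' := fun y w => Subtype.ext (map_mul t (y : G) w) }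
      have hτ : τ * τ = 1 := by
        ext y
        show t (t y) = y
        rw [← MulAut.mul_apply, ht]; rfl
      obtain ⟨e, heZ, ⟨k, hek⟩, hez⟩ := exists_coset_fixed hZc hZ2 hne τ hτ
        (fun z hz => Subtype.ext (htR _ hz))
      have hez : (e : G)⁻¹ * t e ∈ R := hez
      have hek : (e : G) ^ 2 ^ k = 1 := by rw [← SubmonoidClass.coe_pow, hek]; rfl
      -- the elements of `N` acting trivially on `R` and on `D / R`
      let V : Subgroup N :=
        { carrier := {v | (∀ r ∈ R, Commute (v : X) (ι r)) ∧ ∃ r ∈ R, (v : X) * tX * (v : X)⁻¹ = ι r * tX}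
          one_mem' := ⟨fun r _ => Commute.one_left _, 1, R.one_mem, by simp⟩
          mul_mem' := by
            rintro v w ⟨hv, a, ha, hva⟩ ⟨hw, b, hb, hwb⟩
            refine ⟨fun r hr => (hv r hr).mul_left (hw r hr), b * a, R.mul_mem hb ha, ?_⟩
            show (v : X) * w * tX * ((v : X) * w)⁻¹ = _
            calc (v : X) * w * tX * ((v : X) * w)⁻¹ = (v : X) * ((w : X) * tX * (w : X)⁻¹) * (v : X)⁻¹ := by group
              _ = ((v : X) * ι b * (v : X)⁻¹) * ((v : X) * tX * (v : X)⁻¹) := by rw [hwb]; group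
              _ = ι (b * a) * tX := by rw [(hv b hb).mul_inv_cancel, hva, map_mul]; group
          inv_mem' := by
            rintro v ⟨hv, a, ha, hva⟩
            refine ⟨fun r hr => (hv r hr).inv_left, a⁻¹, R.inv_mem ha, ?_⟩
            show (v : X)⁻¹ * tX * (v : X)⁻¹⁻¹ = _
            calc (v : X)⁻¹ * tX * (v : X)⁻¹⁻¹ = (v : X)⁻¹ * (ι a⁻¹ * (ι a * tX)) * v := by
                  rw [map_inv]; group
              _ = (v : X)⁻¹ * ι a⁻¹ * v * tX := by rw [← hva]; group
              _ = ι a⁻¹ * tX := by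
                  rw [mul_assoc ((v : X)⁻¹), ← (hv a⁻¹ (R.inv_mem ha)).eq, inv_mul_cancel_left] }
      have hVn : V.Normal := by
        refine ⟨?_⟩
        rintro v ⟨hv, a, ha, hva⟩ y
        obtain ⟨yv, hy⟩ := y
        have hy' : yv⁻¹ ∈ N := inv_mem hy
        refine ⟨fun r hr => ?_, ?_⟩
        · obtain ⟨r', hr', e⟩ := hRnorm _ hy' r hr
          rw [inv_inv] at e
          have := (hv r' hr').map (MulAut.conj yv).toMonoidHom
          simp only [MulEquiv.toMonoidHom_eq_coe, MonoidHom.coe_coe, MulAut.conj_apply] at this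
          rwa [← e, show yv * (yv⁻¹ * ι r * yv) * yv⁻¹ = ι r by group] at this
        · obtain ⟨b, hb, hb'⟩ := hDelt _ ((Subgroup.mem_normalizer_iff.1 hy' tX).1 htD)
          rw [inv_inv] at hb'
          show ∃ r ∈ R, yv * (v : X) * yv⁻¹ * tX * (yv * (v : X) * yv⁻¹)⁻¹ = ι r * tX
          rcases hb' with hb' | hb'
          · refine ⟨1, R.one_mem, ?_⟩
            calc yv * (v : X) * yv⁻¹ * tX * (yv * (v : X) * yv⁻¹)⁻¹
                = yv * ((v : X) * (yv⁻¹ * tX * yv) * (v : X)⁻¹) * yv⁻¹ := by group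
              _ = yv * (yv⁻¹ * tX * yv) * yv⁻¹ := by rw [hb', (hv b hb).mul_inv_cancel]
              _ = ι 1 * tX := by rw [map_one]; group
          · obtain ⟨r', hr', e⟩ := hRnorm _ hy (b * a * b⁻¹) (R.mul_mem (R.mul_mem hb ha) (R.inv_mem hb))
            refine ⟨r', hr', ?_⟩
            rw [map_mul, map_mul, map_inv] at e
            calc yv * (v : X) * yv⁻¹ * tX * (yv * (v : X) * yv⁻¹)⁻¹
                = yv * ((v : X) * (yv⁻¹ * tX * yv) * (v : X)⁻¹) * yv⁻¹ := by group
              _ = yv * (((v : X) * ι b * (v : X)⁻¹) * ((v : X) * tX * (v : X)⁻¹)) * yv⁻¹ := by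
                  rw [hb']; group
              _ = yv * (ι b * ι a * tX) * yv⁻¹ := by rw [(hv b hb).mul_inv_cancel, hva]; group
              _ = (yv * (ι b * ι a * (ι b)⁻¹) * yv⁻¹) * (yv * (yv⁻¹ * tX * yv) * yv⁻¹) := by
                  rw [hb']; group
              _ = ι r' * tX := by rw [e]; group
      haveI := hVn
      have hVle : V ≤ Cfsg.pPrimePCore 2 N := by
        set π := QuotientGroup.mk' (Cfsg.pPrimeCore 2 N) with hπ
        haveI : (V.map π).Normal := hVn.map π (QuotientGroup.mk'_surjective _)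
        have hV2 : IsPGroup 2 (V.map π) := by
          rintro ⟨_, v, hv, rfl⟩
          obtain ⟨hvc, a, ha, hva⟩ := hv
          obtain ⟨i, hi⟩ := hR2 ⟨a, ha⟩
          have hi : a ^ 2 ^ i = 1 := congrArg Subtype.val hi
          have hpow : ∀ j : ℕ, (v : X) ^ j * tX * ((v : X) ^ j)⁻¹ = ι (a ^ j) * tX := by
            intro j
            induction j with
            | zero => simp
            | succ j ih =>
              calc (v : X) ^ (j + 1) * tX * ((v : X) ^ (j + 1))⁻¹
                  = (v : X) * ((v : X) ^ j * tX * ((v : X) ^ j)⁻¹) * (v : X)⁻¹ := by rw [pow_succ']; group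
                _ = ((v : X) * ι (a ^ j) * (v : X)⁻¹) * ((v : X) * tX * (v : X)⁻¹) := by rw [ih]; group
                _ = ι (a ^ (j + 1)) * tX := by
                  rw [(hvc _ (R.pow_mem ha j)).mul_inv_cancel, hva, pow_succ, map_mul, mul_assoc]
          have hc : (v : X) ^ 2 ^ i ∈ Subgroup.centralizer (D : Set X) := by
            rw [Subgroup.mem_centralizer_iff]
            intro d hd
            have htc : Commute ((v : X) ^ 2 ^ i) tX := by
              have := hpow (2 ^ i)
              rw [hi, map_one, one_mul] at this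
              exact mul_inv_eq_iff_eq_mul.1 this
            obtain ⟨r, hr, rfl | rfl⟩ := hDelt d hd
            · exact ((hvc r hr).pow_left _).eq.symm
            · exact (((hvc r hr).pow_left _).mul_right htc).eq.symm
          obtain ⟨w, hw, hwe⟩ := hDcent hc
          have hwe : w = v ^ 2 ^ i := Subtype.ext (by rw [SubmonoidClass.coe_pow]; exact hwe)
          subst hwe
          obtain ⟨j, hj⟩ := CfsgLib.Cores.isPGroup_pCore 2 _ ⟨π (v ^ 2 ^ i), hw⟩
          refine ⟨i + j, Subtype.ext ?_⟩
          have hj : π (v ^ 2 ^ i) ^ 2 ^ j = 1 := congrArg Subtype.val hj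
          show π v ^ 2 ^ (i + j) = 1
          rw [pow_add, pow_mul, ← map_pow, hj]
        intro v hv
        exact CfsgLib.Cores.le_pCore hV2 ⟨v, hv, rfl⟩
      -- so `e` lies in `D`
      have het : ι (e : G) * tX * (ι (e : G))⁻¹ = ι ((e : G) * (t e)⁻¹) * tX := by
        rw [map_mul, map_inv, ← hιconj, mul_inv_rev, mul_inv_rev, inv_inv]
        group
      have heR : ∀ r ∈ R, Commute (ι (e : G)) (ι r) := fun r hr =>
        (show Commute (e : G) r from (Subgroup.mem_centralizer_iff.1 e.2 r hr).symm).map ι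
      have hmemR : (e : G) * (t e)⁻¹ ∈ R := by
        have h1 : (e : G) * ((e : G)⁻¹ * t e)⁻¹ * (e : G)⁻¹ ∈ R := by
          have hc : Commute (e : G) ((e : G)⁻¹ * t e)⁻¹ :=
            ((Subgroup.mem_centralizer_iff.1 e.2 _ (R.inv_mem hez)).symm)
          rw [hc.mul_inv_cancel]; exact R.inv_mem hez
        have e' : (e : G) * ((e : G)⁻¹ * t e)⁻¹ * (e : G)⁻¹ = (e : G) * (t e)⁻¹ := by group
        rwa [e'] at h1
      have heN : ι (e : G) ∈ N := by
        haveI : Finite ↥(D : Set X) := Finite.of_injective Subtype.val Subtype.val_injective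
        apply Subgroup.mem_normalizer_fintype
        intro d hd
        obtain ⟨r, hr, rfl | rfl⟩ := hDelt d hd
        · rw [(heR r hr).mul_inv_cancel]; exact hd
        · have e2 : ι (e : G) * (ι r * tX) * (ι (e : G))⁻¹ =
              (ι (e : G) * ι r * (ι (e : G))⁻¹) * (ι (e : G) * tX * (ι (e : G))⁻¹) := by group
          rw [e2, (heR r hr).mul_inv_cancel, het]
          exact D.mul_mem hr (D.mul_mem hmemR htD)
      have heO : ι (e : G) ∈ (Cfsg.pPrimePCore 2 N).map N.subtype :=
        ⟨⟨_, heN⟩, hVle ⟨heR, _, hmemR, het⟩, rfl⟩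
      rw [← hDsup] at heO
      have hON : (Cfsg.pPrimeCore 2 N).map N.subtype ≤ Subgroup.normalizer (D : Set X) :=
        Subgroup.map_subtype_le _
      have hset := Subgroup.coe_mul_of_left_le_normalizer_right _ D hON
      obtain ⟨o, ho, d, hd, hod⟩ : ι (e : G) ∈ (((Cfsg.pPrimeCore 2 N).map N.subtype : Subgroup X) : Set X) * (D : Set X) := by
        rw [← hset]; exact heO
      have hod : o * d = ι (e : G) := hod
      have hcod : Commute o d := hDcomm o ho d hd
      have hd' : ∃ j, d ^ 2 ^ j = 1 := by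
        obtain ⟨j, hj⟩ := (P.2.to_le hDP) ⟨d, hd⟩
        exact ⟨j, congrArg Subtype.val hj⟩
      obtain ⟨j, hj⟩ := hd'
      have hocard : Odd (Nat.card ((Cfsg.pPrimeCore 2 N).map N.subtype)) := by
        rw [Subgroup.card_map_of_injective N.subtype_injective]
        exact CfsgLib.Cores.odd_card_oddCore
      have ho1 : o = 1 := by
        have h1 : o ^ 2 ^ (k + j) = 1 := by
          have h2 : (o * d) ^ 2 ^ (k + j) = 1 := by
            rw [hod, ← map_pow, pow_add, pow_mul, hek, one_pow, map_one]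
          rw [hcod.mul_pow, add_comm k j, pow_add, pow_mul d, hj, one_pow, mul_one] at h2
          rw [add_comm k j, pow_add]
          exact h2
        obtain ⟨l, -, hl⟩ := (Nat.dvd_prime_pow Nat.prime_two).1 (orderOf_dvd_of_pow_eq_one h1)
        rcases l with _ | l
        · exact orderOf_eq_one_iff.1 hl
        · exfalso
          have := Subgroup.orderOf_dvd_natCard _ ho
          rw [hl] at this
          exact Nat.not_even_iff_odd.2 hocard
            (even_iff_two_dvd.2 ((dvd_pow_self 2 (Nat.succ_ne_zero _)).trans this))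
      rw [ho1, one_mul] at hod
      exact heZ (show ι (e : G) ∈ D from hod ▸ hd)
    obtain ⟨O, hOn, hOodd, hOdec, hOmem⟩ := exists_odd_complement hZc hZ2 hodd
    haveI := hOn
    -- the normaliser of `R`
    have hgood : ∀ g : G, (∀ r ∈ R, g * r * g⁻¹ ∈ R) → ∀ k ∈ K, g⁻¹ * k g ∈ Cg := by
      intro g hg k hk
      rw [hCg, Subgroup.mem_centralizer_iff]
      intro r hr
      have h1 : k g * r * (k g)⁻¹ = g * r * g⁻¹ := by
        calc k g * r * (k g)⁻¹ = k (g * r * g⁻¹) := by
              rw [map_mul, map_mul, map_inv, hk r (hRS r hr)]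
          _ = g * r * g⁻¹ := hk _ (hRS _ (hg r hr))
      calc r * (g⁻¹ * k g) = g⁻¹ * (g * r * g⁻¹) * k g := by group
        _ = g⁻¹ * (k g * r * (k g)⁻¹) * k g := by rw [h1]
        _ = g⁻¹ * k g * r := by group
    have hcommQ : ∀ a b : Cg ⧸ O, a * b = b * a := by
      intro a b
      induction a using QuotientGroup.induction_on with
      | _ a =>
      induction b using QuotientGroup.induction_on with
      | _ b =>
      obtain ⟨z, hz, o, ho, rfl⟩ := hOdec a
      rw [QuotientGroup.mk_mul, (QuotientGroup.eq_one_iff o).2 ho, mul_one, ← QuotientGroup.mk_mul,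
        ← QuotientGroup.mk_mul, Subgroup.mem_center_iff.1 (hZc hz) b]
    -- on `x`
    have hx0 : ∀ g : G, ι g ∈ N → (ι g)⁻¹ * tX * ι g = tX := by
      intro g hg
      have hgR : ∀ r ∈ R, g * r * g⁻¹ ∈ R := fun r hr => by
        show ι (g * r * g⁻¹) ∈ D
        rw [map_mul, map_mul, map_inv]
        exact (Subgroup.mem_normalizer_iff.1 hg _).1 hr
      let f : K →* Cg ⧸ O :=
        MonoidHom.mk' (fun k => ((⟨g⁻¹ * (k : MulAut G) g, hgood g hgR k k.2⟩ : Cg) : Cg ⧸ O)) (by
          intro k1 k2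
          rw [← QuotientGroup.mk_mul]
          set y : Cg := ⟨g⁻¹ * (k2 : MulAut G) g, hgood g hgR k2 k2.2⟩ with hy
          have hky : ((⟨(k1 : MulAut G) y, hCgK k1 k1.2 y y.2⟩ : Cg) : Cg ⧸ O) = (y : Cg ⧸ O) := by
            obtain ⟨z, hz, o, ho, he⟩ := hOdec y
            have ho' : (⟨(k1 : MulAut G) o, hCgK k1 k1.2 o o.2⟩ : Cg) ∈ O := by
              refine hOmem _ ?_
              rw [← Subgroup.orderOf_coe]
              show Odd (orderOf ((k1 : MulAut G) (o : G)))
              rw [MulEquiv.orderOf_eq, Subgroup.orderOf_coe]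
              exact hOodd o ho
            have e1 : (⟨(k1 : MulAut G) y, hCgK k1 k1.2 y y.2⟩ : Cg) =
                z * ⟨(k1 : MulAut G) o, hCgK k1 k1.2 o o.2⟩ := by
              apply Subtype.ext
              show (k1 : MulAut G) (y : G) = (z : G) * (k1 : MulAut G) (o : G)
              rw [he, Subgroup.coe_mul, map_mul, k1.2 (z : G) (hRS (z : G) hz)]
            rw [e1, QuotientGroup.mk_mul, (QuotientGroup.eq_one_iff _).2 ho', he, QuotientGroup.mk_mul,
              (QuotientGroup.eq_one_iff _).2 ho]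
          rw [QuotientGroup.mk_mul, ← hky, ← QuotientGroup.mk_mul]
          congr 1
          apply Subtype.ext
          show g⁻¹ * ((k1 : MulAut G) * k2) g = g⁻¹ * (k1 : MulAut G) g * (k1 : MulAut G) (g⁻¹ * (k2 : MulAut G) g)
          rw [MulAut.mul_apply, map_mul, map_inv]
          group)
      have hker : (⁅(⊤ : Subgroup K), ⊤⁆ : Subgroup K) ≤ f.ker := by
        rw [Subgroup.commutator_le]
        intro a _ b _
        rw [MonoidHom.mem_ker, map_commutatorElement, commutatorElement_eq_one_iff_commute]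
        exact hcommQ _ _
      have htk : t ∈ Subgroup.map K.subtype (⁅(⊤ : Subgroup K), ⊤⁆ : Subgroup K) := by
        rw [Subgroup.map_commutator, ← MonoidHom.range_eq_map, Subgroup.range_subtype]
        exact htK
      obtain ⟨t', ht', hte⟩ := htk
      have hft := MonoidHom.mem_ker.1 (hker ht')
      have hoO : (⟨g⁻¹ * (t' : MulAut G) g, hgood g hgR t' t'.2⟩ : Cg) ∈ O :=
        (QuotientGroup.eq_one_iff _).1 hft
      have hte : (t' : MulAut G) = t := hte
      set o : Cg := ⟨g⁻¹ * (t' : MulAut G) g, hgood g hgR t' t'.2⟩ with ho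
      have e : (ι g)⁻¹ * tX * ι g = ι (o : G) * tX := by
        show _ = ι (g⁻¹ * (t' : MulAut G) g) * tX
        rw [hte, map_mul, map_inv, ← hιconj]
        group
      have hoD : ι (o : G) ∈ D := by
        have h1 := (Subgroup.mem_normalizer_iff.1 (inv_mem hg) tX).1 htD
        rw [inv_inv, e] at h1
        have := D.mul_mem h1 (D.inv_mem htD)
        rwa [mul_inv_cancel_right] at this
      have ho1 : (o : G) = 1 := by
        obtain ⟨i, hi⟩ := hR2 ⟨(o : G), hoD⟩
        have hi : (o : G) ^ 2 ^ i = 1 := congrArg Subtype.val hi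
        obtain ⟨l, -, hl⟩ := (Nat.dvd_prime_pow Nat.prime_two).1 (orderOf_dvd_of_pow_eq_one hi)
        rcases l with _ | l
        · exact orderOf_eq_one_iff.1 hl
        · exfalso
          have := hOodd o hoO
          rw [← Subgroup.orderOf_coe, hl] at this
          exact Nat.not_even_iff_odd.2 this (even_iff_two_dvd.2 (dvd_pow_self 2 (Nat.succ_ne_zero _)))
      rw [e, ho1, map_one, one_mul]
    obtain ⟨g, rfl | rfl⟩ := hdec x
    · exact hx0 g hx
    · have hg : ι g ∈ N := by
        have := N.mul_mem hx (N.inv_mem (Subgroup.le_normalizer htD))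
        rwa [mul_inv_cancel_right] at this
      calc (ι g * tX)⁻¹ * tX * (ι g * tX) = tX⁻¹ * ((ι g)⁻¹ * tX * ι g) * tX := by group
        _ = tX := by rw [hx0 g hg]; group
  -- `tX` is isolated
  have hconj : ∀ (A : Set X) (g : X), CfsgLib.Goldschmidt.Conj P A g → A = {tX} → g⁻¹ * tX * g = tX := by
    intro A g hc
    induction hc with
    | centralize A c hc =>
      rintro rfl
      rw [mul_assoc, hc tX rfl, inv_mul_cancel_left]
    | step A D x g hA hD hx _ ih =>
      rintro rfl
      have hfix := key D hD (hA rfl) x hx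
      have := ih (by rw [Set.image_singleton, hfix])
      calc (x * g)⁻¹ * tX * (x * g) = g⁻¹ * (x⁻¹ * tX * x) * g := by group
        _ = tX := by rw [hfix, this]
  have hiso : ∀ g : X, g * tX * g⁻¹ ∈ P → g * tX * g⁻¹ = tX := by
    intro g hg
    have h1 := CfsgLib.Goldschmidt.conj_of_fusion P (A := {tX}) (Set.singleton_subset_iff.2 htP)
      (g := g⁻¹) (by rintro _ ⟨a, rfl, rfl⟩; rw [inv_inv]; exact hg)
    have := hconj _ _ h1 rfl
    rwa [inv_inv] at this
  have hO : Cfsg.oddCore X = ⊥ := by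
    set W := (Cfsg.oddCore X).comap ι with hW
    have hWodd : Odd (Nat.card W) :=
      (CfsgLib.Cores.odd_card_oddCore (G := X)).of_dvd_nat (Subgroup.card_comap_dvd_of_injective _ ι hιinj)
    have hWbot : W = ⊥ := by
      refine (Subgroup.Normal.eq_bot_or_eq_top (inferInstance : W.Normal)).resolve_right fun e => ?_
      rw [e, Subgroup.card_top] at hWodd
      obtain ⟨⟨s, hs⟩, hs1⟩ := Subgroup.ne_bot_iff_exists_ne_one.1 hS1
      obtain ⟨i, hi⟩ := S.2 ⟨s, hs⟩
      have hi : s ^ 2 ^ i = 1 := congrArg Subtype.val hi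
      obtain ⟨j, -, hj⟩ := (Nat.dvd_prime_pow Nat.prime_two).1 (orderOf_dvd_of_pow_eq_one hi)
      rcases j with _ | j
      · exact hs1 (Subtype.ext (orderOf_eq_one_iff.1 hj))
      · have := orderOf_dvd_natCard s
        rw [hj] at this
        exact Nat.not_even_iff_odd.2 hWodd (even_iff_two_dvd.2 ((dvd_pow_self 2 (Nat.succ_ne_zero _)).trans this))
    rw [Subgroup.eq_bot_iff_forall]
    rintro ⟨y, hyX⟩ hy
    apply Subtype.ext
    refine MulEquiv.ext fun g => ?_
    have hcomm : ι (y g * g⁻¹) ∈ Cfsg.oddCore X := by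
      have hn : (Cfsg.oddCore X).Normal := inferInstance
      have := (Cfsg.oddCore X).mul_mem hy (hn.conj_mem _ ((Cfsg.oddCore X).inv_mem hy) (ι g))
      convert this using 1
      apply Subtype.ext
      show MulAut.conj (y g * g⁻¹) = y * (MulAut.conj g * y⁻¹ * (MulAut.conj g)⁻¹)
      rw [map_mul, map_inv, ← conj_conj]
      group
    have : y g * g⁻¹ ∈ W := hcomm
    rw [hWbot, Subgroup.mem_bot] at this
    show y g = g
    exact mul_inv_eq_one.1 this
  have hc := CfsgLib.Involutions.mem_center_of_isolated P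
    (u := tX) (orderOf_eq_prime (by rw [pow_two]; exact htXtX) (fun e => ht1 (congrArg Subtype.val e)))
    hiso hO
  apply ht1
  refine MulEquiv.ext fun g => hιinj ?_
  have := Subgroup.mem_center_iff.1 hc (ι g)
  show ι (t g) = ι g
  rw [← hιconj, ← this, mul_inv_cancel_right]

end CfsgLib.OutSolvable
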