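/-
Solvability of the outer automorphism group from the Sylow 2-subgroup, given the odd order theorem.
-/
import Cfsg.Agent.Lib.OutSolvable.Isolated
import Cfsg.Prelude.Def_KGroupFacts

set_option autoImplicit false
set_option linter.style.haveILetI false

open scoped commutatorElement Pointwise

namespace CfsgLib.OutSolvable

universe u

/-- The odd order theorem, as a hypothesis. -/
def OddOrderStatement : Prop :=
  ∀ (H : Type u) [Group H] [Finite H], Odd (Nat.card H) → Group.IsSolvable H

variable {G : Type u} [Group G]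

/-- The automorphisms leaving `S` invariant. -/
def stabAut (S : Subgroup G) : Subgroup (MulAut G) where
  carrier := {α | ∀ x, α x ∈ S ↔ x ∈ S}
  one_mem' := fun _ => Iff.rfl
  mul_mem' := fun {α β} ha hb x => by rw [MulAut.mul_apply, ha (β x), hb x]
  inv_mem' := fun {α} ha x => by rw [← ha (α⁻¹ x), MulAut.apply_inv_self]

/-- Restriction to an invariant subgroup. -/
def resAut (S : Subgroup G) : stabAut S →* MulAut S where
  toFun α :=
    { toFun := fun x => ⟨(α : MulAut G) x, (α.2 x).2 x.2⟩
      invFun := fun x => ⟨(α : MulAut G).symm x, (α.2 _).1 (by rw [MulEquiv.apply_symm_apply]; exact x.2)⟩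
      left_inv := fun x => Subtype.ext ((α : MulAut G).symm_apply_apply x)
      right_inv := fun x => Subtype.ext ((α : MulAut G).apply_symm_apply x)
      map_mul' := fun x y => Subtype.ext (map_mul (α : MulAut G) (x : G) y) }
  map_one' := rfl
  map_mul' _ _ := rfl

theorem resAut_apply (S : Subgroup G) (α : stabAut S) (x : S) :
    ((resAut S α x : S) : G) = (α : MulAut G) x := rfl

variable [Finite G]

theorem isSolvable_fixAut (FT : OddOrderStatement.{u}) [IsSimpleGroup G] (hG : ¬ IsMulCommutative G)
    (S : Sylow 2 G) (hS1 : (S : Subgroup G) ≠ ⊥) :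
    Group.IsSolvable (fixAut (S : Subgroup G)) := by
  haveI : Fact (Nat.Prime 2) := ⟨Nat.prime_two⟩
  set K := fixAut (S : Subgroup G) with hK
  set D : Subgroup K := ⁅(⊤ : Subgroup K), ⊤⁆ with hD
  have hodd : Odd (Nat.card D) := by
    by_contra hne
    rw [Nat.not_odd_iff_even] at hne
    obtain ⟨x, hx⟩ := exists_prime_orderOf_dvd_card' (G := D) 2 (even_iff_two_dvd.1 hne)
    set t : MulAut G := ((x : K) : MulAut G) with ht
    have htD : t ∈ ⁅K, K⁆ := by
      have : t ∈ Subgroup.map K.subtype D := ⟨(x : K), x.2, rfl⟩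
      rwa [hD, Subgroup.map_commutator, ← MonoidHom.range_eq_map, Subgroup.range_subtype] at this
    have hxx : x * x = 1 := by rw [← pow_two, ← hx, pow_orderOf_eq_one]
    have := involution_eq_one hG S hS1 (t := t)
      (congrArg (fun y : D => ((y : K) : MulAut G)) hxx) htD
    have hx1 : x = 1 := Subtype.ext (Subtype.ext this)
    rw [hx1, orderOf_one] at hx
    omega
  haveI : Group.IsSolvable D := FT D hodd
  haveI : D.Normal := by rw [hD]; infer_instance
  haveI : Group.IsSolvable (K ⧸ D) := Group.isSolvable_of_comm fun a b => by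
    induction a using QuotientGroup.induction_on with
    | _ a =>
    induction b using QuotientGroup.induction_on with
    | _ b =>
    rw [← QuotientGroup.mk_mul, ← QuotientGroup.mk_mul, QuotientGroup.eq]
    have : (a * b)⁻¹ * (b * a) = ⁅b⁻¹, a⁻¹⁆ := by rw [commutatorElement_def]; group
    rw [this]
    exact Subgroup.commutator_mem_commutator (Subgroup.mem_top _) (Subgroup.mem_top _)
  exact (Group.isSolvable_iff_subgroup_quotient D).2 ⟨inferInstance, inferInstance⟩

/-- Given the odd order theorem, `Out G` is solvable as soon as the group induced on a Sylow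
2-subgroup by the automorphisms leaving it invariant is solvable. -/
theorem isSolvable_out (FT : OddOrderStatement.{u}) [IsSimpleGroup G] (hG : ¬ IsMulCommutative G)
    (S : Sylow 2 G) (hS1 : (S : Subgroup G) ≠ ⊥)
    (hres : Group.IsSolvable (resAut (S : Subgroup G)).range) :
    Group.IsSolvable (Cfsg.Out G) := by
  haveI : Fact (Nat.Prime 2) := ⟨Nat.prime_two⟩
  haveI := hres
  set N := stabAut (S : Subgroup G) with hN
  set r := resAut (S : Subgroup G) with hr
  haveI := isSolvable_fixAut FT hG S hS1
  have hkfix : ∀ k : r.ker, ((k : N) : MulAut G) ∈ fixAut (S : Subgroup G) := fun k s hs => by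
    have := MulEquiv.congr_fun (MonoidHom.mem_ker.1 k.2) ⟨s, hs⟩
    exact congrArg Subtype.val this
  haveI : Group.IsSolvable r.ker :=
    Group.isSolvable_of_isSolvable_injective
      (f := MonoidHom.codRestrict ((stabAut (S : Subgroup G)).subtype.comp r.ker.subtype) _ hkfix)
      (fun a b e => Subtype.ext (Subtype.ext (congrArg (fun y : fixAut (S : Subgroup G) => (y : MulAut G)) e)))
  haveI : Group.IsSolvable N :=
    Group.isSolvable_of_ker_le_range r.ker.subtype r.rangeRestrict (by
      rw [MonoidHom.ker_rangeRestrict, Subgroup.range_subtype])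
  refine Group.isSolvable_of_surjective (f := (QuotientGroup.mk' (Cfsg.Inn G)).comp N.subtype) ?_
  intro p
  induction p using QuotientGroup.induction_on with
  | _ α =>
  obtain ⟨g, hg⟩ := MulAction.exists_smul_eq G S
    (S.comapOfInjective (α.symm.toMonoidHom) α.symm.injective (by
      intro x _; exact ⟨α x, α.symm_apply_apply x⟩))
  refine ⟨⟨(MulAut.conj g)⁻¹ * α, fun x => ?_⟩, ?_⟩
  · have hmem : ∀ y, y ∈ (MulAut.conj g • (S : Subgroup G) : Subgroup G) ↔ α.symm y ∈ (S : Subgroup G) := by
      intro y
      rw [← Sylow.coe_subgroup_smul, hg]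
      rfl
    show (MulAut.conj g)⁻¹ (α x) ∈ (S : Subgroup G) ↔ x ∈ (S : Subgroup G)
    have := hmem (α x)
    rw [MulEquiv.symm_apply_apply, Subgroup.mem_pointwise_smul_iff_inv_smul_mem] at this
    exact this
  · show QuotientGroup.mk' (Cfsg.Inn G) ((MulAut.conj g)⁻¹ * α) = _
    rw [map_mul, map_inv, show QuotientGroup.mk' (Cfsg.Inn G) (MulAut.conj g) = 1 from (QuotientGroup.eq_one_iff _).2 ⟨g, rfl⟩, inv_one, one_mul]
    rfl

end CfsgLib.OutSolvable
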