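/-
The group induced on a Sylow 2-subgroup with two or three generators is solvable, given the odd order
theorem.
-/
import Cfsg.Agent.Lib.OutSolvable.Main
import Cfsg.Agent.Lib.NormalComplements.AutCount
import Cfsg.Agent.Lib.CharTheory.Burnside

set_option autoImplicit false
set_option linter.style.haveILetI false

namespace CfsgLib.OutSolvable

universe u

open CfsgLib.NormalComplements.AutCount in
/-- The order of the automorphism group of a 2-group with a generating tuple of length `k`. -/
theorem card_mulAut_dvd_of_generated {P : Type u} [Group P] [Finite P] (hP : IsPGroup 2 P) {k : ℕ}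
    (t : Fin k → P) (ht : Subgroup.closure (Set.range t) = ⊤) :
    ∃ r a, r ≤ k ∧ Nat.card (MulAut P) ∣ 2 ^ a * ∏ i ∈ Finset.range r, (2 ^ r - 2 ^ i) := by
  haveI : Fact (Nat.Prime 2) := ⟨Nat.prime_two⟩
  obtain ⟨n, hn⟩ := IsPGroup.iff_card.1 hP
  obtain ⟨r, -, hr⟩ := (Nat.dvd_prime_pow Nat.prime_two).1 (hn ▸ Subgroup.index_dvd_card (frattini P))
  refine ⟨r, r * (n - r), ?_, card_mulAut_dvd hn hr⟩
  have h1 := card_span_le hP t
  rw [show spanT t = ⊤ by rw [spanT, ht, top_sup_eq], Subgroup.card_top,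
    ← (frattini P).card_mul_index, hr, mul_comm (2 ^ k)] at h1
  exact (Nat.pow_le_pow_iff_right (by norm_num)).1 (Nat.le_of_mul_le_mul_left h1 Nat.card_pos)

theorem isSolvable_mulAut_of_two {P : Type u} [Group P] [Finite P] (hP : IsPGroup 2 P) (x y : P)
    (h : Subgroup.closure ({x, y} : Set P) = ⊤) : Group.IsSolvable (MulAut P) := by
  obtain ⟨r, a, hr, hd⟩ := card_mulAut_dvd_of_generated hP ![x, y] (by
    rw [show Set.range ![x, y] = ({x, y} : Set P) by
      simp [Matrix.range_cons, Matrix.range_empty, Set.pair_comm, Set.union_singleton]]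
    exact h)
  refine CfsgLib.CharTheory.isSolvable_of_card_dvd_pow_mul_pow 2 3 (a + 1) 1 Nat.prime_two
    Nat.prime_three (hd.trans ?_)
  rw [pow_succ 2 a, mul_assoc]
  refine mul_dvd_mul_left _ ?_
  interval_cases r <;> simp [Finset.prod_range_succ]

variable {G : Type u} [Group G]

theorem resAut_conj (S : Subgroup G) {g : G} (hg : g ∈ Subgroup.normalizer (S : Set G)) :
    MulAut.conj g ∈ stabAut S := fun x => ((Subgroup.mem_normalizer_iff.1 hg) x).symm

variable [Finite G]

/-- Three generators and a normaliser not inducing a 2-group: the induced group is solvable. -/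
theorem isSolvable_range_of_three (FT : OddOrderStatement.{u}) (S : Sylow 2 G) (x y w : S)
    (h : Subgroup.closure ({x, y, w} : Set S) = ⊤) {g : G}
    (hg : g ∈ Subgroup.normalizer ((S : Subgroup G) : Set G)) (hodd : Odd (orderOf g))
    (hgC : g ∉ Subgroup.centralizer ((S : Subgroup G) : Set G)) :
    Group.IsSolvable (resAut (S : Subgroup G)).range := by
  haveI : Fact (Nat.Prime 2) := ⟨Nat.prime_two⟩
  set A := (resAut (S : Subgroup G)).range with hA
  set N := Subgroup.normalizer ((S : Subgroup G) : Set G) with hN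
  let f : N →* stabAut (S : Subgroup G) :=
    (MulAut.conj.comp N.subtype).codRestrict _ fun n => resAut_conj _ n.2
  let φ : N →* A := (resAut (S : Subgroup G)).rangeRestrict.comp f
  have hJn : φ.range.Normal := by
    refine ⟨?_⟩
    rintro _ ⟨n, rfl⟩ ⟨α, β, rfl⟩
    have hβn : (β : MulAut G) (n : G) ∈ N := by
      refine Subgroup.mem_normalizer_iff.2 fun v => ?_
      obtain ⟨v, rfl⟩ := (β : MulAut G).surjective v
      rw [← map_inv (β : MulAut G), ← map_mul (β : MulAut G), ← map_mul (β : MulAut G),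
        show _ ↔ _ from β.2 v, show _ ↔ _ from β.2 _]
      exact Subgroup.mem_normalizer_iff.1 n.2 v
    refine ⟨⟨_, hβn⟩, Subtype.ext ?_⟩
    show resAut _ (f ⟨_, hβn⟩) = resAut _ β * resAut _ (f n) * (resAut _ β)⁻¹
    rw [← map_inv (resAut (S : Subgroup G)), ← map_mul, ← map_mul]
    congr 1
    apply Subtype.ext
    show MulAut.conj ((β : MulAut G) n) = (β : MulAut G) * MulAut.conj (n : G) * (β : MulAut G)⁻¹
    exact (conj_conj _ _).symm
  set SN := (S : Subgroup G).subgroupOf N with hSN
  have hidx : Odd SN.index := by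
    rw [← Nat.not_even_iff_odd, even_iff_two_dvd]
    exact fun hd => S.not_dvd_index (hd.trans (Subgroup.relIndex_dvd_index_of_le
      Subgroup.le_normalizer))
  haveI : SN.Normal := Subgroup.normal_in_normalizer
  haveI : Group.IsSolvable (N ⧸ SN) := FT _ (by rw [← Subgroup.index]; exact hidx)
  haveI : Group.IsNilpotent SN := (S.2.comap_subtype : IsPGroup 2 SN).isNilpotent
  haveI : Group.IsSolvable N := (Group.isSolvable_iff_subgroup_quotient SN).2 ⟨inferInstance, inferInstance⟩
  haveI : Group.IsSolvable φ.range := Group.isSolvable_of_surjective φ.rangeRestrict_surjective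
  obtain ⟨r, a, hr, hd⟩ := card_mulAut_dvd_of_generated S.2 ![x, y, w] (by
    rw [show Set.range ![x, y, w] = ({x, y, w} : Set S) by
      simp only [Matrix.range_cons, Matrix.range_empty, Set.union_empty, Set.singleton_union]]
    exact h)
  have hAd : Nat.card A ∣ 2 ^ (a + 3) * (3 * 7) := by
    refine ((Subgroup.card_subgroup_dvd_card _).trans hd).trans ?_
    rw [pow_add, mul_assoc]
    refine mul_dvd_mul_left _ ?_
    interval_cases r <;> simp [Finset.prod_range_succ] <;> norm_num
  -- the image of `g` has odd order greater than one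
  set e := φ ⟨g, hg⟩ with he
  have he1 : e ≠ 1 := by
    intro e1
    apply hgC
    rw [Subgroup.mem_centralizer_iff]
    intro s hs
    have := congrArg (fun v : A => ((((v : MulAut S) : S ≃* S) ⟨s, hs⟩ : S) : G)) e1
    have h2 : g * s * g⁻¹ = s := this
    exact (mul_inv_eq_iff_eq_mul.1 h2).symm
  have heodd : Odd (orderOf e) := hodd.of_dvd_nat ((orderOf_map_dvd φ _).trans (by
    rw [Subgroup.orderOf_mk]))
  obtain ⟨p, hp, hpd⟩ := Nat.exists_prime_and_dvd (show orderOf e ≠ 1 by rwa [Ne, orderOf_eq_one_iff])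
  have hp2 : p ≠ 2 := fun e2 => Nat.not_even_iff_odd.2 heodd (even_iff_two_dvd.2 (e2 ▸ hpd))
  have hpJ : p ∣ Nat.card φ.range :=
    hpd.trans (Subgroup.orderOf_dvd_natCard φ.range ⟨⟨g, hg⟩, rfl⟩)
  haveI := hJn
  haveI : Group.IsSolvable (A ⧸ φ.range) := by
    have hQ : Nat.card (A ⧸ φ.range) * p ∣ 2 ^ (a + 3) * (3 * 7) := by
      refine dvd_trans ?_ hAd
      rw [Subgroup.card_eq_card_quotient_mul_card_subgroup φ.range]
      exact mul_dvd_mul_left _ hpJ
    have hp37 : p = 3 ∨ p = 7 := by
      have h1 : p ∣ 2 ^ (a + 3) * (3 * 7) := (dvd_mul_left _ _).trans hQ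
      rcases hp.dvd_mul.1 h1 with h2 | h2
      · exact absurd ((Nat.prime_dvd_prime_iff_eq hp Nat.prime_two).1 (hp.dvd_of_dvd_pow h2)) hp2
      · rcases hp.dvd_mul.1 h2 with h3 | h3
        · exact Or.inl ((Nat.prime_dvd_prime_iff_eq hp Nat.prime_three).1 h3)
        · exact Or.inr ((Nat.prime_dvd_prime_iff_eq hp (by norm_num)).1 h3)
    rcases hp37 with rfl | rfl
    · refine CfsgLib.CharTheory.isSolvable_of_card_dvd_pow_mul_pow 2 7 (a + 3) 1 Nat.prime_two (by norm_num) ?_
      refine Nat.dvd_of_mul_dvd_mul_right (show 0 < 3 by norm_num) (hQ.trans ?_)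
      exact dvd_of_eq (by ring)
    · refine CfsgLib.CharTheory.isSolvable_of_card_dvd_pow_mul_pow 2 3 (a + 3) 1 Nat.prime_two Nat.prime_three ?_
      refine Nat.dvd_of_mul_dvd_mul_right (show 0 < 7 by norm_num) (hQ.trans ?_)
      exact dvd_of_eq (by ring)
  exact (Group.isSolvable_iff_subgroup_quotient φ.range).2 ⟨inferInstance, inferInstance⟩

end CfsgLib.OutSolvable
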