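/-
The rows on solvability of outer automorphism groups, with the odd order theorem as a hypothesis.
-/
import Cfsg.Agent.Lib.OutSolvable.Main

set_option autoImplicit false
set_option linter.style.haveILetI false

open Cfsg

namespace CfsgLib.OutSolvable

universe u

/-- The statement of row S3065, given the odd order theorem. -/
theorem s3065 {G : Type u} [Group G] [Finite G] [IsSimpleGroup G]
    (FT : OddOrderStatement.{u})
    (hG : ¬ IsMulCommutative G) (S : Sylow 2 G) (hS1 : (S : Subgroup G) ≠ ⊥) (hS : Group.IsSolvable (MulAut ↥S)) :
    Group.IsSolvable (Cfsg.Out G) := by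
  haveI := hS
  exact isSolvable_out FT hG S hS1 inferInstance

end CfsgLib.OutSolvable
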